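import Cfsg.Agent.HaR.D
import Cfsg.Agent.H11.Three
import Cfsg.Agent.MW.Small

set_option autoImplicit false
open Subgroup

namespace Cfsg.Agent.HaR

variable {S : Type*} [Group S] [Finite S] {A V : Subgroup S}

theorem fStep (hS : IsPGroup 2 S) (N M : Subgroup S) [hN : N.Normal] [M.Normal] (hNM : N ≤ M)
    (h : Nat.card N < Nat.card M) :
    ∃ (x : S) (P : Subgroup S), P.Normal ∧ N ≤ P ∧ P ≤ M ∧ x ∈ P ∧
      (∀ s, s * x * s⁻¹ * x⁻¹ ∈ N) ∧ (∀ y ∈ P, y ∈ N ∨ y * x⁻¹ ∈ N) ∧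
      Nat.card P = 2 * Nat.card N := by
  haveI : Fact (Nat.Prime 2) := ⟨Nat.prime_two⟩
  obtain ⟨x, hx, hx1, hx2, hx3⟩ := H3.exists_central_mod hS (N := N) (M := M)
    (fun hle => absurd (card_le_of_le hle) (not_le.2 h))
  let P : Subgroup S :=
    { carrier := {y | y ∈ N ∨ y * x⁻¹ ∈ N}
      one_mem' := Or.inl N.one_mem
      mul_mem' := by
        rintro a b (ha | ha) (hb | hb)
        · exact Or.inl (N.mul_mem ha hb)
        · right
          have := N.mul_mem ha hb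
          rwa [← mul_assoc] at this
        · right
          have := N.mul_mem ha (hN.conj_mem b hb x)
          convert this using 1; group
        · left
          have := N.mul_mem (N.mul_mem ha (hN.conj_mem _ hb x)) hx2
          convert this using 1; rw [pow_two]; group
      inv_mem' := by
        rintro a (ha | ha)
        · exact Or.inl (N.inv_mem ha)
        · right
          have := N.mul_mem (hN.conj_mem _ (N.inv_mem ha) x⁻¹) (N.inv_mem hx2)
          convert this using 1; rw [pow_two]; group }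
  have hP : ∀ y, y ∈ P ↔ y ∈ N ∨ y * x⁻¹ ∈ N := fun y => Iff.rfl
  have hNP : N ≤ P := fun y hy => Or.inl hy
  have hxP : x ∈ P := Or.inr (by simpa using N.one_mem)
  refine ⟨x, P, ⟨?_⟩, hNP, ?_, hxP, hx3, fun y hy => hy, ?_⟩
  · rintro a (ha | ha) g
    · exact Or.inl (hN.conj_mem a ha g)
    · right
      have := N.mul_mem (hN.conj_mem _ ha g) (hx3 g)
      convert this using 1; group
  · rintro a (ha | ha)
    · exact hNM ha
    · have := M.mul_mem (hNM ha) hx
      simpa using this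
  · have h2 : N.relIndex P = 2 := by
      rw [relIndex, index_eq_two_iff]
      refine ⟨⟨x⁻¹, P.inv_mem hxP⟩, fun b => ?_⟩
      simp only [mem_subgroupOf, coe_mul]
      by_cases hb : (b : S) ∈ N
      · refine Or.inr ⟨hb, fun h' => hx1 ?_⟩
        have := N.mul_mem (N.inv_mem h') hb
        simpa using this
      · exact Or.inl ⟨((hP _).1 b.2).resolve_left hb, hb⟩
    have h3 := (N.subgroupOf P).index_mul_card
    rw [Nat.card_congr (subgroupOfEquivOfLe hNP).toEquiv] at h3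
    rw [← h3, ← h2]; rfl

theorem fFlag (hS : IsPGroup 2 S) (B : Subgroup S) [B.Normal] (h : 4 < Nat.card B) :
    ∃ (p v : S) (Z P W : Subgroup S), Z.Normal ∧ W.Normal ∧ W ≤ B ∧ Nat.card Z = 2 ∧
      Nat.card P = 4 ∧ Nat.card W = 8 ∧ (∀ z ∈ Z, ∀ s, s * z = z * s) ∧ P ≤ W ∧ p ∈ P ∧ v ∈ W ∧
      (∀ s, s * p * s⁻¹ * p⁻¹ ∈ Z) ∧ (∀ s, s * v * s⁻¹ * v⁻¹ ∈ P) ∧
      (∀ y ∈ P, y ∈ Z ∨ y * p⁻¹ ∈ Z) ∧ (∀ y ∈ W, y ∈ P ∨ y * v⁻¹ ∈ P) := by
  obtain ⟨c, Z, hZ, -, hZB, -, c1, c2, c3⟩ := fStep hS ⊥ B bot_le (by rw [card_bot]; omega)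
  rw [card_bot] at c3
  obtain ⟨p, P, hP, -, hPB, hp, p1, p2, p3⟩ := fStep hS Z B hZB (by omega)
  obtain ⟨v, W, hW, hPW, hWB, hv, v1, v2, v3⟩ := fStep hS P B hPB (by omega)
  refine ⟨p, v, Z, P, W, hZ, hW, hWB, by omega, by omega, by omega, ?_, hPW, hp, hv, p1, v1, p2, v2⟩
  intro z hz s
  rcases c2 z hz with h1 | h1
  · rw [mem_bot.1 h1]; simp
  · have e : z = c := mul_inv_eq_one.1 (mem_bot.1 h1)
    have := mem_bot.1 (c1 s)
    rw [e, ← mul_inv_eq_one, ← this]; group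

theorem exV (hS : IsPGroup 2 S) (B : Subgroup S) [B.Normal] (h : 4 < Nat.card B) :
    ∃ V : Subgroup S, V.Normal ∧ V ≤ B ∧ Nat.card V = 8 := by
  obtain ⟨p, v, Z, P, W, -, hW, hWB, -, -, h8, -⟩ := fFlag hS B h
  exact ⟨W, hW, hWB, h8⟩

theorem fFlagV (h : E8 V) :
    ∃ (p v : S) (Z P : Subgroup S), Z.Normal ∧ Nat.card Z = 2 ∧
      Nat.card P = 4 ∧ (∀ z ∈ Z, ∀ s, s * z = z * s) ∧ P ≤ V ∧
      (∀ s, s * p * s⁻¹ * p⁻¹ ∈ Z) ∧ (∀ s, s * v * s⁻¹ * v⁻¹ ∈ P) ∧
      (∀ y ∈ P, y ∈ Z ∨ y * p⁻¹ ∈ Z) ∧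
      centralizer (V : Set S) = centralizer ({v} : Set S) ⊓ centralizer ({p} : Set S) := by
  haveI := h.n
  obtain ⟨p, v, Z, P, W, hZ, -, hWB, c2, c4, c8, hc, hPW, hp, hv, p1, v1, p2, v2⟩ :=
    fFlag h.p2 V (by rw [h.card]; omega)
  have e : W = V := eq_of_le_of_card_ge hWB (by rw [h.card, c8])
  subst e
  refine ⟨p, v, Z, P, hZ, c2, c4, hc, hPW, p1, v1, p2, le_antisymm ?_ ?_⟩
  · intro g hg
    rw [mem_centralizer_iff] at hg
    exact ⟨mem_centralizer_singleton_iff.2 (hg v hv).symm,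
      mem_centralizer_singleton_iff.2 (hg p (hPW hp)).symm⟩
  · rintro g ⟨g1, g2⟩
    have g1 : Commute g v := mem_centralizer_singleton_iff.1 g1
    have g2 : Commute g p := mem_centralizer_singleton_iff.1 g2
    have hP : ∀ y ∈ P, Commute g y := by
      intro y hy
      rcases p2 y hy with h1 | h1
      · exact hc y h1 g
      · have h2 : Commute g (y * p⁻¹) := hc _ h1 g
        simpa using h2.mul_right g2
    rw [mem_centralizer_iff]
    intro y hy
    rcases v2 y hy with h1 | h1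
    · exact (hP y h1).symm.eq
    · have := (hP _ h1).mul_right g1
      simp only [inv_mul_cancel_right] at this
      exact this.symm.eq

theorem fRel (h : E8 V) (H : Subgroup S) : (centralizer (V : Set S)).relIndex H ≤ 8 ∧
    ((∀ x ∈ H, x * x ∈ centralizer (V : Set S)) → (centralizer (V : Set S)).relIndex H ≤ 4) := by
  obtain ⟨p, v, Z, P, hZ, c2, c4, hc, hPV, p1, v1, p2, hK⟩ := fFlagV h
  have e : (centralizer (V : Set S)).relIndex H =
      (centralizer ({v} : Set S)).relIndex (centralizer ({p} : Set S) ⊓ H) *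
        (centralizer ({p} : Set S)).relIndex H := by
    rw [hK, relIndex_inf_mul_relIndex]
  have a2 : (centralizer ({p} : Set S)).relIndex H ≤ 2 := c2 ▸ MW.ri_le fun t _ => p1 t
  have a4 : (centralizer ({v} : Set S)).relIndex (centralizer ({p} : Set S) ⊓ H) ≤ 4 :=
    c4 ▸ MW.ri_le fun t _ => v1 t
  refine ⟨e ▸ Nat.mul_le_mul a4 a2, fun hsq => ?_⟩
  by_cases hH : H ≤ centralizer ({p} : Set S)
  · rw [e, relIndex_eq_one.2 hH]; omega
  obtain ⟨x, hx, hxp⟩ := SetLike.not_le_iff_exists.1 hH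
  rw [mem_centralizer_singleton_iff] at hxp
  have L : ∀ g ∈ H, ¬ g * p = p * g → g * v * g⁻¹ * v⁻¹ ∈ Z := by
    intro g hg hgp
    refine (p2 _ (v1 g)).resolve_right fun hz => hgp ?_
    have hv : g * g * v = v * (g * g) := by
      have := hsq g hg
      rw [hK] at this
      exact mem_centralizer_singleton_iff.1 this.1
    have hw := h.sq _ (hPV (v1 g))
    obtain ⟨w, hwd⟩ : ∃ w, w = g * v * g⁻¹ * v⁻¹ := ⟨_, rfl⟩
    rw [← hwd] at hw hz
    have h1 : g * w * g⁻¹ * w = 1 := by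
      calc g * w * g⁻¹ * w = (g * g * v) * (g * g)⁻¹ * v⁻¹ := by rw [hwd]; group
        _ = 1 := by rw [hv]; group
    have h2 : g * w = w * g := by
      have : g * w * g⁻¹ = w := mul_right_cancel (h1.trans hw.symm)
      rw [← mul_inv_eq_iff_eq_mul, this]
    have h3 : Commute g (w * p⁻¹) := hc _ hz g
    have h4 : Commute g w := h2
    have h5 := (h3.inv_right.mul_right h4)
    simpa using h5.eq
  have b2 : (centralizer ({v} : Set S)).relIndex (centralizer ({p} : Set S) ⊓ H) ≤ 2 := by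
    refine c2 ▸ MW.ri_le fun y hy => ?_
    have hy1 : y * p = p * y := mem_centralizer_singleton_iff.1 hy.1
    have l1 := L x hx hxp
    have l2 := L (x * y) (H.mul_mem hx hy.2) fun h' => hxp (by
      rw [mul_assoc, hy1, ← mul_assoc, ← mul_assoc] at h'
      exact mul_right_cancel h')
    have := hZ.conj_mem _ (Z.mul_mem l2 (Z.inv_mem l1)) x⁻¹
    convert this using 1; group
  rw [e]
  exact Nat.mul_le_mul b2 a2

theorem idx8 (h : E8 V) : (centralizer (V : Set S)).index ≤ 8 := by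
  have := (fRel h ⊤).1
  rwa [relIndex_top_right] at this

theorem quo4 (h : E8 V) {H M : Subgroup S} (hM : H ⊓ centralizer (V : Set S) ≤ M) (hMH : M ≤ H)
    (hsq : ∀ x ∈ H, x * x ∈ M) : M.relIndex H ≤ 4 := by
  obtain ⟨r8, r4⟩ := fRel h H
  have e := relIndex_mul_relIndex _ _ _ hM hMH
  rw [inf_relIndex_left] at e
  have n0 : (centralizer (V : Set S)).relIndex H ≠ 0 := index_ne_zero_of_finite
  by_cases h1 : (H ⊓ centralizer (V : Set S)).relIndex M = 1
  · rw [h1, one_mul] at e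
    rw [e]
    exact r4 fun x hx => (relIndex_eq_one.1 h1 (hsq x hx)).2
  · have h0 : (H ⊓ centralizer (V : Set S)).relIndex M ≠ 0 := index_ne_zero_of_finite
    have h2 : 2 ≤ (H ⊓ centralizer (V : Set S)).relIndex M := by omega
    have := Nat.mul_le_mul_right (M.relIndex H) h2
    omega

end Cfsg.Agent.HaR
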