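import Cfsg.Agent.S0112
import Cfsg.Agent.S0113
import Cfsg.Agent.H11.Three

/-! Two-groups with an element whose centralizer has order four. -/

namespace Cfsg.Agent.HaR

open Subgroup

variable {S : Type*} [Group S] [Finite S]

theorem mc_cyc (hS : IsPGroup 2 S) (α : S) {T : Subgroup S} (hT : IsCyclic T) (h2 : T.index = 2)
    (H : Subgroup S) : (∀ M : Subgroup S, M ≤ H → (∀ x ∈ H, x * x ∈ M) → M.relIndex H ≤ 4) ∧
      (2 < Nat.card H → ∃ t ∈ H, t ≠ 1 ∧ t * α = α * t) := by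
  haveI : Fact (Nat.Prime 2) := ⟨Nat.prime_two⟩
  haveI := normal_of_index_eq_two h2
  refine ⟨fun M _ hsq => ?_, fun hH => ?_⟩
  · obtain ⟨g, hg⟩ := (Subgroup.isCyclic_iff_exists_zpowers_eq_top (H ⊓ T)).1 (isCyclic_of_le inf_le_right)
    have hgH : g ∈ H := (hg.le (mem_zpowers g)).1
    obtain ⟨x, hx, hx'⟩ : ∃ x ∈ H, ∀ b ∈ H, b ∈ T ∨ x⁻¹ * b ∈ T := by
      by_cases e : H ≤ T
      · exact ⟨1, one_mem _, fun b hb => Or.inl (e hb)⟩
      · obtain ⟨x, hx, hx'⟩ := SetLike.not_le_iff_exists.1 e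
        refine ⟨x, hx, fun b _ => or_iff_not_imp_left.2 fun hb => ?_⟩
        rw [mul_mem_iff_of_index_two h2, inv_mem_iff]
        exact iff_of_false hx' hb
    have key : ∀ b ∈ H ⊓ T, ∃ i : Fin 2, (g ^ (i : ℕ))⁻¹ * b ∈ M := by
      intro b hb
      obtain ⟨k, rfl⟩ := mem_powers_iff_mem_zpowers.2 (hg.ge hb)
      refine ⟨⟨k % 2, Nat.mod_lt _ two_pos⟩, ?_⟩
      show (g ^ (k % 2))⁻¹ * g ^ k ∈ M
      nth_rewrite 2 [← Nat.mod_add_div k 2]
      rw [pow_add, inv_mul_cancel_left, pow_mul, sq]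
      exact pow_mem (hsq g hgH) _
    refine (Nat.card_le_card_of_surjective (fun p : Fin 2 × Fin 2 =>
      (QuotientGroup.mk ⟨x ^ (p.1 : ℕ) * g ^ (p.2 : ℕ), mul_mem (pow_mem hx _) (pow_mem hgH _)⟩ :
        H ⧸ M.subgroupOf H)) fun q => ?_).trans (by simp)
    obtain ⟨b, rfl⟩ := QuotientGroup.mk_surjective q
    rcases hx' b b.2 with e | e
    · obtain ⟨i, hi⟩ := key b ⟨b.2, e⟩
      exact ⟨(0, i), QuotientGroup.eq.2 (by simpa [mem_subgroupOf] using hi)⟩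
    · obtain ⟨i, hi⟩ := key _ ⟨H.mul_mem (H.inv_mem hx) b.2, e⟩
      exact ⟨(1, i), QuotientGroup.eq.2 (by simpa [mem_subgroupOf, mul_assoc] using hi)⟩
  · obtain ⟨τ, hτ⟩ := (Subgroup.isCyclic_iff_exists_zpowers_eq_top T).1 hT
    have hn : ∀ s : S, ∀ a ∈ H ⊓ T, s * a * s⁻¹ ∈ H ⊓ T := by
      intro s a ha
      obtain ⟨i, rfl⟩ := hτ.ge ha.2
      obtain ⟨k, hk⟩ := hτ.ge (Normal.conj_mem inferInstance τ (hτ.le (mem_zpowers τ)) s)
      simp only at hk ⊢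
      rw [← conj_zpow, ← hk, ← zpow_mul, mul_comm, zpow_mul]
      exact zpow_mem ha k
    obtain ⟨t, t1, t2, -, t4⟩ := H11.exists_central_mod_in (S := ⊤) (N := ⊥) (M := H ⊓ T)
      (hS.to_subgroup _) le_top (by rw [normalizer_eq_top]) (fun s _ => mem_normalizer_iff.2 fun a =>
        ⟨hn s a, fun e => by simpa [mul_assoc] using hn s⁻¹ _ e⟩) (fun e => by
        have h1 := H11.card_mul_relIndex (inf_le_left : H ⊓ T ≤ H)
        rw [le_bot_iff.1 e, card_bot, one_mul, ← le_bot_iff.1 e, inf_relIndex_left] at h1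
        have := Nat.le_of_dvd two_pos (h2 ▸ relIndex_dvd_index_of_normal T H)
        omega)
    refine ⟨t, t1.1, t2, ?_⟩
    have := t4 α trivial
    rw [mem_bot, mul_inv_eq_one, mul_inv_eq_iff_eq_mul] at this
    exact this.symm

theorem mc (hS : IsPGroup 2 S) (α : S) (h : Nat.card (centralizer ({α} : Set S)) = 4)
    (H : Subgroup S) : (∀ M : Subgroup S, M ≤ H → (∀ x ∈ H, x * x ∈ M) → M.relIndex H ≤ 4) ∧
      (2 < Nat.card H → ∃ t ∈ H, t ≠ 1 ∧ t * α = α * t) := by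
  haveI : Fact (Nat.Prime 2) := ⟨Nat.prime_two⟩
  obtain ⟨n, hn⟩ := IsPGroup.iff_card.1 hS
  by_cases h3 : 3 ≤ n
  · have hc := IsPGroup.isMulCommutative_of_card_eq_prime_sq (p := 2) h
    obtain ⟨T, hT, h2⟩ := S0113.result n h3 hn (S0112.result n hn (centralizer ({α} : Set S)) h
      (le_antisymm (centralizer_le (Set.singleton_subset_iff.2 (mem_centralizer_singleton_iff.2 rfl)))
        (le_centralizer _)))
    exact mc_cyc hS α hT h2 H
  · have h4 : Nat.card S ≤ 4 := by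
      rw [hn]; exact (Nat.pow_le_pow_right two_pos (by omega) : 2 ^ n ≤ 2 ^ 2)
    have ht : centralizer ({α} : Set S) = ⊤ := eq_top_of_le_card _ (h ▸ h4)
    refine ⟨fun M _ _ => ((Nat.le_of_dvd Nat.card_pos (relIndex_dvd_card M H)).trans
      (card_le_card_group H)).trans h4, fun hH => ?_⟩
    obtain ⟨t, t1, t2⟩ := (H.bot_or_exists_ne_one).resolve_left fun e => by
      rw [e, card_bot] at hH; omega
    exact ⟨t, t1, t2, mem_centralizer_singleton_iff.1 (ht.ge trivial)⟩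

end Cfsg.Agent.HaR
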