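import Cfsg.Agent.HaR.II
import Cfsg.Agent.HaR.MC

set_option autoImplicit false
open Subgroup

namespace Cfsg.Agent.HaR
variable {S : Type*} [Group S] [Finite S] {A V : Subgroup S}

theorem core (hA : SC A) (hV : E8 V) (H N : Subgroup S) (hl : N ≤ H) (hs : ∀ x ∈ H, x * x ∈ N) :
    N.relIndex H ≤ 16 := by
  haveI := hV.n
  by_cases hKV : centralizer (V : Set S) ≤ V
  · by_contra hb
    push Not at hb
    have e : centralizer (V : Set S) = V := le_antisymm hKV fun v hv => hV.le hv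
    have q4 : (N ⊔ H ⊓ centralizer (V : Set S)).relIndex H ≤ 4 :=
      quo4 hV le_sup_right (sup_le hl inf_le_left) fun x hx => mem_sup_left (hs x hx)
    rw [e] at q4
    have := card_le_of_le ((full hV hl hs q4 hb).2.2.trans hKV)
    have e2 := Nat.le_of_dvd Nat.card_pos (relIndex_dvd_card N H)
    rw [hV.card] at this
    omega
  have hAK : ¬ A ≤ centralizer (V : Set S) := fun e => hKV (by
    have h1 : V ≤ A := fun v hv => hA.cen v fun b hb => (mem_centralizer_iff.1 (e hb) v hv).symm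
    have h2 : V = A := eq_of_le_of_card_ge h1 (by rw [hA.card, hV.card])
    subst h2
    exact fun g hg => hA.cen g (mem_centralizer_iff.1 hg))
  obtain ⟨a, ha, aK⟩ := SetLike.not_le_iff_exists.1 hAK
  have hi : (A ⊓ centralizer (V : Set S)).relIndex A ≤ 4 :=
    quo4 hV le_rfl inf_le_left fun x hx => by rw [hA.sq x hx]; exact one_mem _
  obtain ⟨k, kK, kV, k2, kc⟩ := cmod hV.p2 hKV
  obtain ⟨u, uV, ua⟩ : ∃ u ∈ V, u * a ≠ a * u := by
    by_contra hc
    push Not at hc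
    exact aK (mem_centralizer_iff.2 hc)
  have h : Co V a k u := ⟨hV, hA.sq a ha, card0 hV (hA.sq a ha) aK, a1 hV hA hi ha aK,
    kK, kV, k2, kc, uV, ua⟩
  by_cases hq : k * k = 1 ∨ k * k = d a u
  · exact h.subII hA ha hi hq hl hs
  · push Not at hq
    exact h.subI hq.1 (mc (hV.p2.to_quotient V) _ (h.c4I hA ha hq.1 hq.2)) hl hs

theorem main (hS : IsPGroup 2 S) (hA : SC A)
    (mw : (∀ B : Subgroup S, B.Normal → IsMulCommutative B → (∀ a ∈ B, a ^ 2 = 1) →
      Nat.card B ≤ 4) → Cfsg.SectionalPRankLE 2 4 S) : Cfsg.SectionalPRankLE 2 4 S := by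
  by_cases h : ∀ B : Subgroup S, B.Normal → IsMulCommutative B → (∀ a ∈ B, a ^ 2 = 1) →
      Nat.card B ≤ 4
  · exact mw h
  push Not at h
  obtain ⟨B, hn, hc, h2, h4⟩ := h
  obtain ⟨V, vn, hle, v8⟩ := exV hS B h4
  exact red (core hA ⟨hS, vn, fun a ha b hb => congrArg Subtype.val
    (hc.is_comm.comm (⟨a, hle ha⟩ : B) ⟨b, hle hb⟩), fun a ha => by rw [← sq, h2 a (hle ha)], v8⟩)

theorem main' (hS : IsPGroup 2 S) (A : Subgroup S) (hc : IsMulCommutative A)
    (h2 : ∀ a ∈ A, a ^ 2 = 1) (h8 : Nat.card A = 8) (hC : centralizer (A : Set S) = A)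
    (mw : (∀ B : Subgroup S, B.Normal → IsMulCommutative B → (∀ a ∈ B, a ^ 2 = 1) →
      Nat.card B ≤ 4) → Cfsg.SectionalPRankLE 2 4 S) : Cfsg.SectionalPRankLE 2 4 S :=
  main hS ⟨fun a ha b hb => congrArg Subtype.val (hc.is_comm.comm (⟨a, ha⟩ : A) ⟨b, hb⟩),
    fun a ha => by rw [← sq, h2 a ha], h8, fun g hg => hC ▸ mem_centralizer_iff.2 hg⟩ mw

end Cfsg.Agent.HaR
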