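import Cfsg.Agent.HaR.D
import Cfsg.Agent.H11.SRank
import Cfsg.Agent.H11.QD

/-! A self-centralizing elementary abelian group of order eight acting on a normal one. -/

set_option autoImplicit false
open Subgroup

namespace Cfsg.Agent.HaR

variable {S : Type*} [Group S] [Finite S] {A V : Subgroup S}

theorem card0 (h : E8 V) {a : S} (ha : a * a = 1) (hK : a ∉ centralizer (V : Set S)) :
    Nat.card ↥(V ⊓ centralizer {a}) = 4 := by
  haveI := h.n
  obtain ⟨K, k1, -, k2⟩ := H11.exists_comm_sub h.sq (t := a) (by rw [normalizer_eq_top]; trivial)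
    fun e _ => by rw [ha, one_mul, mul_one]
  have k3 := card_le_of_le k1
  have k4 := card_dvd_of_le (inf_le_left : V ⊓ centralizer {a} ≤ V)
  have k6 : Nat.card ↥(V ⊓ centralizer {a}) ≠ 8 := fun e => hK fun w hw =>
    mem_centralizer_singleton_iff.1 ((eq_of_le_of_card_ge (inf_le_left : V ⊓ centralizer {a} ≤ V)
      (h.card.trans e.symm).le).ge hw).2
  rw [h.card] at k2 k4
  have k5 := Nat.le_of_dvd (by decide) k4
  generalize Nat.card (V ⊓ centralizer {a} : Subgroup S) = n at *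
  interval_cases n <;> omega

theorem E8.exists_z (h : E8 V) : ∃ z ∈ V, z ≠ 1 ∧ ∀ g, g * z = z * g := by
  haveI := h.n
  haveI : Fact (Nat.Prime 2) := ⟨Nat.prime_two⟩
  obtain ⟨z, z1, z2, -, z4⟩ := H11.exists_central_mod_in (S := ⊤) (N := ⊥) (M := V) (h.p2.to_subgroup ⊤) le_top
    (by rw [normalizer_eq_top]) (by rw [normalizer_eq_top]) fun e => by
      have := card_le_of_le e
      rw [h.card, card_bot] at this
      omega
  simp only [mem_bot, mul_inv_eq_iff_eq_mul, one_mul, mem_top, true_imp_iff] at z2 z4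
  exact ⟨z, z1, z2, z4⟩

theorem cen_of_idx2 (hA : SC A) {D : Subgroup S} (hi : D.relIndex A = 2) {a g : S} (ha : a ∈ A) (h1 : a ∉ D)
    (h2 : a * g = g * a) (h3 : ∀ d ∈ D, d ∈ A → d * g = g * d) : g ∈ A := hA.cen g fun b hb => by
  by_cases h4 : b ∈ D
  · exact h3 b h4 hb
  · have := h3 _ ((mul_mem_iff_of_index_two hi (a := ⟨b, hb⟩) (b := ⟨a, ha⟩)).2
      ⟨fun e => absurd e h4, fun e => absurd e h1⟩) (mul_mem hb ha)
    change b * a * g = g * (b * a) at this
    rw [mul_assoc, h2, ← mul_assoc, ← mul_assoc] at this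
    exact mul_right_cancel this

section

variable (h : E8 V) (hA : SC A) (hi : (A ⊓ centralizer (V : Set S)).relIndex A ≤ 4)
include h hA hi

theorem cases3 : A ≤ centralizer (V : Set S) ∨ ((A ⊓ centralizer (V : Set S)).relIndex A = 2 ∧
    ∀ a ∈ A, a ∉ centralizer (V : Set S) → V ⊓ centralizer {a} = A ⊓ centralizer (V : Set S)) ∨
    ∃ z ∈ V, z ≠ 1 ∧ (∀ g, g * z = z * g) ∧ zpowers z = A ⊓ centralizer (V : Set S) := by
  have a1 := H11.card_mul_relIndex (inf_le_left : A ⊓ centralizer (V : Set S) ≤ A)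
  rw [hA.card] at a1
  have a2 : (A ⊓ centralizer (V : Set S)).relIndex A = 1 ∨ (A ⊓ centralizer (V : Set S)).relIndex A = 2 ∨
      (A ⊓ centralizer (V : Set S)).relIndex A = 4 := by
    generalize (A ⊓ centralizer (V : Set S)).relIndex A = n at *
    interval_cases n <;> omega
  rcases a2 with e | e | e
  · exact Or.inl ((relIndex_eq_one.1 e).trans inf_le_right)
  · refine Or.inr (Or.inl ⟨e, fun a ha hK => eq_of_le_of_card_ge (fun w hw => ⟨cen_of_idx2 hA e ha (fun e => hK e.2)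
      (mem_centralizer_singleton_iff.1 hw.2).symm fun d hd _ => (hd.2 w hw.1).symm, fun x hx => h.c x hx w hw.1⟩) ?_⟩)
    rw [card0 h (hA.sq a ha) hK]
    rw [e] at a1
    omega
  · obtain ⟨z, z1, z2, z3⟩ := h.exists_z
    refine Or.inr (Or.inr ⟨z, z1, z2, z3, eq_of_le_of_card_ge
      (zpowers_le.2 ⟨hA.cen z fun a _ => z3 a, fun x _ => z3 x⟩) ?_⟩)
    have := H11.two_le_card_of_mem (mem_zpowers z) z2
    rw [e] at a1
    omega

theorem a0 : A ⊓ centralizer (V : Set S) ≤ V ∨ A ≤ centralizer (V : Set S) := by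
  refine or_iff_not_imp_right.2 fun h1 => ?_
  obtain ⟨a, ha, hK⟩ := SetLike.not_le_iff_exists.1 h1
  rcases cases3 h hA hi with e | ⟨-, e⟩ | ⟨z, z1, -, -, e⟩
  · exact absurd e h1
  · rw [← e a ha hK]; exact inf_le_left
  · rw [← e]; exact zpowers_le.2 z1

theorem a2 {a s : S} (ha : a ∈ A) (hK : a ∉ centralizer (V : Set S)) (hs : s * a = a * s)
    (h0 : ∀ w ∈ V, w * a = a * w → s * w = w * s) (hb : ∀ b ∈ A, s * b * s⁻¹ * b⁻¹ ∈ V) :
    ∃ w ∈ V, s * w ∈ A := by
  haveI : Fact (Nat.Prime 2) := ⟨Nat.prime_two⟩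
  rcases cases3 h hA hi with e | ⟨e1, e⟩ | ⟨z, z1, z2, z3, e⟩
  · exact absurd (e ha) hK
  · refine ⟨1, one_mem _, ?_⟩
    rw [mul_one]
    refine cen_of_idx2 hA e1 ha (fun e => hK e.2) hs.symm fun d hd _ => ?_
    rw [← e a ha hK] at hd
    exact (h0 d hd.1 (mem_centralizer_singleton_iff.1 hd.2)).symm
  have zz := h.sq z z1
  have mz : ∀ {x}, x ∈ zpowers z ↔ x = 1 ∨ x = z := H11.mem_zpowers_invol zz
  have zA : z ∈ A := (e.le (mem_zpowers z)).1
  have aa := hA.sq a ha
  have m4 : ∀ {x}, x ∈ closure ({z, a} : Set S) ↔ x = 1 ∨ x = z ∨ x = a ∨ x = z * a :=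
    H11.mem_four_iff zz aa (z3 a).symm
  have le : closure ({z, a} : Set S) ≤ A := (closure_le _).2 (by rintro _ (rfl | rfl); exacts [zA, ha])
  have cz : Nat.card (zpowers z) = 2 := by
    rw [Nat.card_zpowers]; exact orderOf_eq_prime (by rw [sq, zz]) z2
  have i2 : (closure ({z, a} : Set S)).relIndex A = 2 := by
    have b1 := H11.card_mul_relIndex le
    have b2 := H11.two_mul_card_le_of_lt (N := zpowers z) (M := closure ({z, a} : Set S))
      (zpowers_le.2 (m4.2 (Or.inr (Or.inl rfl)))) (m4.2 (Or.inr (Or.inr (Or.inl rfl)))) fun h => hK (e.le h).2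
    have b3 : Nat.card (closure ({z, a} : Set S)) ≤ 4 := by
      have : (closure ({z, a} : Set S) : Set S) = {1, z, a, z * a} := Set.ext fun x => m4
      have h1 := Set.ncard_insert_le (1 : S) {z, a, z * a}
      have h2 := Set.ncard_insert_le z {a, z * a}
      have h3 := Set.ncard_insert_le a {z * a}
      rw [Set.ncard_singleton] at h3
      rw [← this, ← Nat.card_coe_set_eq] at h1
      exact h1.trans (by omega)
    rw [cz] at b2
    rw [hA.card, show Nat.card (closure ({z, a} : Set S)) = 4 by omega] at b1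
    omega
  obtain ⟨b, b1, b2⟩ := SetLike.not_le_iff_exists.1 fun h : A ≤ closure ({z, a} : Set S) => by
    rw [relIndex_eq_one.2 h] at i2; omega
  have bb := hA.sq b b1
  have bi : b⁻¹ = b := inv_eq_of_mul_eq_one_right bb
  have mem : ∀ g, g * a = a * g → g * b = b * g → g ∈ A := fun g g1 g2 =>
    cen_of_idx2 hA i2 b1 b2 g2.symm fun d hd _ => by
      rcases m4.1 hd with rfl | rfl | rfl | rfl
      exacts [by simp, (z3 g).symm, g1.symm, by rw [mul_assoc, ← g1, ← mul_assoc, ← z3 g, mul_assoc]]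
  have tz : ∀ s, s * a = a * s → s * b * s⁻¹ * b⁻¹ ∈ V → s * b = b * s ∨ s * b * s⁻¹ = z * b := fun s s1 s2 => by
    have : s * b * s⁻¹ * b⁻¹ ∈ zpowers z := by
      rw [e]
      refine ⟨mem _ ?_ ?_, fun x hx => h.c x hx _ s2⟩
      · have c1 : Commute s a := s1
        have c2 : Commute b a := hA.c b b1 a ha
        exact ((c1.mul_left c2).mul_left c1.inv_left).mul_left c2.inv_left
      · rw [inv_mul_cancel_right, ← inv_eq_of_mul_eq_one_right (h.sq _ s2)]
        simp [bi, mul_assoc, ← mul_assoc b b, bb]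
    refine (mz.1 this).imp (fun e => ?_) fun e => ?_
    · rwa [mul_inv_eq_one, mul_inv_eq_iff_eq_mul] at e
    · exact mul_inv_eq_iff_eq_mul.1 e
  rcases tz s hs (hb b b1) with e1 | e1
  · exact ⟨1, one_mem _, by rw [mul_one]; exact mem s hs e1⟩
  obtain ⟨w, w1, w2⟩ := SetLike.not_le_iff_exists.1 fun h' : V ⊓ centralizer {a} ≤ zpowers z => by
    have := card_le_of_le h'
    rw [card0 h aa hK, cz] at this
    omega
  have w3 := mem_centralizer_singleton_iff.1 w1.2
  rcases tz w w3 (by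
    rw [mul_assoc, mul_assoc, ← mul_assoc b]
    exact mul_mem w1.1 (h.n.conj_mem _ (inv_mem w1.1) b)) with e2 | e2
  · exact absurd (e.ge ⟨mem w w3 e2, fun x hx => h.c x hx w w1.1⟩) w2
  refine ⟨w, w1.1, mem _ (by rw [mul_assoc, w3, ← mul_assoc, hs, mul_assoc]) ?_⟩
  rw [← mul_inv_eq_iff_eq_mul, show s * w * b * (s * w)⁻¹ = s * (w * b * w⁻¹) * s⁻¹ by group, e2, ← conj_mul, e1,
    z3 s, mul_inv_cancel_right, ← mul_assoc, zz, one_mul]

theorem a1 {a : S} (ha : a ∈ A) (hK : a ∉ centralizer (V : Set S)) :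
    ∀ y ∈ centralizer (V : Set S), y * a = a * y → y ∈ V := by
  haveI : Fact (Nat.Prime 2) := ⟨Nat.prime_two⟩
  haveI := h.n
  intro y hy e
  by_contra hV
  have nm : ∀ N : Subgroup S, N.Normal →
      centralizer {a} ≤ normalizer ((N ⊓ centralizer {a} : Subgroup S) : Set S) := fun N hN g hg =>
    mem_normalizer_fintype fun x hx => ⟨hN.conj_mem x hx.1 g, (centralizer {a}).mul_mem ((centralizer {a}).mul_mem hg hx.2) ((centralizer {a}).inv_mem hg)⟩
  obtain ⟨x, x1, x2, -, x4⟩ := H11.exists_central_mod_in (S := centralizer {a}) (N := V ⊓ centralizer {a})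
    (M := centralizer (V : Set S) ⊓ centralizer {a}) (h.p2.to_subgroup _) inf_le_right (nm _ h.n)
    (nm _ inferInstance) fun h' => hV (h' ⟨hy, mem_centralizer_singleton_iff.2 e⟩).1
  obtain ⟨w, w1, w2⟩ := a2 h hA hi ha hK (mem_centralizer_singleton_iff.1 x1.2) (fun w hw _ => (x1.1 w hw).symm)
    fun b hb => by
      simpa [mul_assoc] using V.inv_mem (x4 b (mem_centralizer_singleton_iff.2 (hA.c b hb a ha))).1
  have := (a0 h hA hi).resolve_right (fun e => hK (e ha)) ⟨w2, mul_mem x1.1 fun v hv => h.c v hv w w1⟩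
  exact x2 ⟨(V.mul_mem_cancel_right w1).1 this, x1.2⟩

end

end Cfsg.Agent.HaR
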