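import Mathlib

set_option autoImplicit false
open Subgroup

namespace Cfsg.Agent.HaR

/-- `V` is a normal elementary abelian subgroup of order 8 of the 2-group `S`. -/
structure E8 {S : Type*} [Group S] (V : Subgroup S) : Prop where
  p2 : IsPGroup 2 S
  n : V.Normal
  c : ∀ a ∈ V, ∀ b ∈ V, a * b = b * a
  sq : ∀ a ∈ V, a * a = 1
  card : Nat.card V = 8

/-- `A` is a self-centralizing elementary abelian subgroup of order 8. -/
structure SC {S : Type*} [Group S] (A : Subgroup S) : Prop where
  c : ∀ a ∈ A, ∀ b ∈ A, a * b = b * a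
  sq : ∀ a ∈ A, a * a = 1
  card : Nat.card A = 8
  cen : ∀ g, (∀ a ∈ A, a * g = g * a) → g ∈ A

end Cfsg.Agent.HaR
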