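import Cfsg.Agent.HaR.L

set_option autoImplicit false
open Subgroup

namespace Cfsg.Agent.HaR
variable {S : Type*} [Group S] [Finite S] {A V : Subgroup S} {a k u : S}

namespace Co

omit [Finite S] in
theorem aK (h : Co V a k u) : a ∉ centralizer (V : Set S) := fun e =>
  h.ua (mem_centralizer_iff.1 e u h.uV)

omit [Finite S] in
theorem qa (h : Co V a k u) : k * k * a = a * (k * k) := (h.qc a).symm

theorem cenI (h : Co V a k u) (hA : SC A) (ha : a ∈ A) (q1 : k * k ≠ 1) (q2 : k * k ≠ d a u)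
    {s : S} (hs : s * a = a * s) : s ∈ V ∨ s * a ∈ V := by
  have f : ∀ s : S, s * a = a * s → ∀ w ∈ V ⊓ centralizer {a}, s * w = w * s := by
    intro s hs w hw
    rcases h.four h.k2 (h.dV h.uV) hw.1 h.qa (h.dc (h.dV h.uV))
      (mem_centralizer_singleton_iff.1 hw.2) q1 h.v1 q2 with rfl | rfl | rfl | rfl
    · simp
    · exact h.qc s
    · exact h.fix1 hs
    · rw [← mul_assoc, h.qc s, mul_assoc, h.fix1 hs, ← mul_assoc]
  have hle : V ⊓ centralizer {a} ≤ A := fun w hw => hA.cen w fun b hb => f b (hA.c b hb a ha) w hw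
  have hi : ((V ⊓ centralizer ({a} : Set S)).subgroupOf A).index = 2 := by
    have := rc (V ⊓ centralizer ({a} : Set S)) A
    rw [inf_eq_left.2 hle, h.c4, hA.card] at this
    unfold relIndex at this; omega
  have two : ∀ b ∈ A, b ∈ V ⊓ centralizer ({a} : Set S) ∨ b * a ∈ V ⊓ centralizer ({a} : Set S) := by
    intro b hb
    by_cases h1 : b ∈ V ⊓ centralizer ({a} : Set S)
    · exact Or.inl h1
    · right
      have h2 : a ∉ V ⊓ centralizer ({a} : Set S) := fun e => h.aK (h.e.le e.1)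
      exact (mul_mem_iff_of_index_two hi (a := ⟨b, hb⟩) (b := ⟨a, ha⟩)).2
        (by simp only [mem_subgroupOf, h1, h2])
  have hsA : s ∈ A := hA.cen s fun b hb => by
    rcases two b hb with e | e
    · exact (f s hs b e).symm
    · have := f s hs _ e
      apply mul_right_cancel (b := a)
      rw [mul_assoc s, this, mul_assoc, hs, mul_assoc]
  exact (two s hsA).imp And.left And.left

theorem c4I (h : Co V a k u) [V.Normal] (hA : SC A) (ha : a ∈ A) (q1 : k * k ≠ 1)
    (q2 : k * k ≠ d a u) : Nat.card (centralizer ({(a : S ⧸ V)} : Set (S ⧸ V))) = 4 := by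
  classical
  have a1 : (a : S ⧸ V) ≠ 1 := fun e => h.aK (h.e.le ((QuotientGroup.eq_one_iff a).1 e))
  have k1 : (k : S ⧸ V) ≠ 1 := fun e => h.kV ((QuotientGroup.eq_one_iff k).1 e)
  have aa : (a : S ⧸ V) * a = 1 := by rw [← QuotientGroup.mk_mul, h.a2, QuotientGroup.mk_one]
  have ka : (k : S ⧸ V) ≠ a := fun e => h.aK (by
    simpa using mul_mem h.kK (h.e.le (QuotientGroup.eq.1 e)))
  have ka1 : (k : S ⧸ V) * a ≠ 1 := fun e => ka (mul_right_cancel (e.trans aa.symm))
  have cm : ∀ s : S, (s : S ⧸ V) * a = a * s ↔ d a s ∈ V := fun s => by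
    rw [← QuotientGroup.eq_one_iff, ← d_one]; rfl
  have e : (centralizer ({(a : S ⧸ V)} : Set (S ⧸ V)) : Set (S ⧸ V)) =
      {1, (k : S ⧸ V), (a : S ⧸ V), (k : S ⧸ V) * a} := by
    apply Set.Subset.antisymm
    · intro x hx
      obtain ⟨s, rfl⟩ := QuotientGroup.mk_surjective x
      have hd := (cm s).1 (mem_centralizer_singleton_iff.1 hx)
      obtain ⟨l, hl, el⟩ := h.sur hd (h.dc hd)
      have : d a (l * (l⁻¹ * s)) = d a l := by rw [mul_inv_cancel_left, el]
      rw [d_mul, mul_eq_right, mul_inv_eq_one, mul_eq_left, d_one] at this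
      have hl' : (l : S ⧸ V) = 1 ∨ (l : S ⧸ V) = k := hl.imp (QuotientGroup.eq_one_iff l).2 fun e => by
        rw [← mul_inv_eq_one]; exact (QuotientGroup.eq_one_iff _).2 e
      have hs' : (s : S ⧸ V) = l ∨ (s : S ⧸ V) = l * a := by
        refine (h.cenI hA ha q1 q2 this).imp (fun e => (QuotientGroup.eq.2 e).symm) fun e => ?_
        have e' : ((l : S ⧸ V)⁻¹ * s * a) = 1 := (QuotientGroup.eq_one_iff _).2 e
        rw [← aa, mul_left_inj, inv_mul_eq_iff_eq_mul] at e'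
        exact e'
      rcases hl' with e | e <;> rcases hs' with f | f <;> simp [f, e]
    · have mk : (k : S ⧸ V) ∈ centralizer ({(a : S ⧸ V)} : Set (S ⧸ V)) :=
        mem_centralizer_singleton_iff.2 ((cm k).2 h.dk)
      have ma : (a : S ⧸ V) ∈ centralizer ({(a : S ⧸ V)} : Set (S ⧸ V)) :=
        mem_centralizer_singleton_iff.2 rfl
      rintro t (rfl | rfl | rfl | rfl)
      exacts [one_mem _, mk, ma, mul_mem mk ma]
  change Nat.card (centralizer ({(a : S ⧸ V)} : Set (S ⧸ V)) : Set (S ⧸ V)) = 4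
  rw [e, Nat.card_coe_set_eq, Set.ncard_insert_of_notMem (by simp [k1.symm, a1.symm, ka1.symm]),
    Set.ncard_insert_of_notMem (by simp [ka, a1]), Set.ncard_pair (by simp [k1])]

theorem subI (h : Co V a k u) [V.Normal] (q1 : k * k ≠ 1)
    (mc : ∀ H : Subgroup (S ⧸ V), (∀ M : Subgroup (S ⧸ V), M ≤ H → (∀ x ∈ H, x * x ∈ M) →
      M.relIndex H ≤ 4) ∧ (2 < Nat.card H → ∃ t ∈ H, t ≠ 1 ∧ t * a = a * t))
    {H N : Subgroup S} (hl : N ≤ H) (hs : ∀ x ∈ H, x * x ∈ N) : N.relIndex H ≤ 16 := by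
  by_contra hb
  push Not at hb
  obtain ⟨m1, m2⟩ := mc (H.map (QuotientGroup.mk' V))
  have h1 := m1 (N.map (QuotientGroup.mk' V)) (map_mono hl) (by
    rintro _ ⟨x, hx, rfl⟩; exact ⟨x * x, hs x hx, map_mul _ _ _⟩)
  rw [← relIndex_comap, ← inf_relIndex_right] at h1
  have h2 : (N ⊔ H ⊓ V).relIndex H ≤ 4 := by
    refine le_trans (relIndex_le_of_le_left ?_ index_ne_zero_of_finite) h1
    rintro x ⟨⟨n, hn, e⟩, hx⟩
    have hv : n⁻¹ * x ∈ V := QuotientGroup.eq.1 e
    have := mul_mem (mem_sup_left hn) (mem_sup_right (S := N) (T := H ⊓ V)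
      ⟨H.mul_mem (H.inv_mem (hl hn)) hx, hv⟩)
    simpa using this
  obtain ⟨hVH, hNV, hHK⟩ := full h.e hl hs h2 hb
  have h3 : 2 < Nat.card (H.map (QuotientGroup.mk' V)) := by
    rw [← relIndex_ker, QuotientGroup.ker_mk']
    have e1 := rc V H
    rw [inf_eq_left.2 hVH, h.e.card] at e1
    have e2 := Nat.le_of_dvd Nat.card_pos (relIndex_dvd_card N H)
    omega
  obtain ⟨_, ⟨t, ht, rfl⟩, t1, tc⟩ := m2 h3
  have tV : t ∉ V := fun e => t1 ((QuotientGroup.eq_one_iff t).2 e)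
  have hd : d a t ∈ V := by
    rw [← QuotientGroup.eq_one_iff]; exact d_one.2 tc
  have e := h.sqL ((h.memL (hHK ht) hd).resolve_left tV)
  exact q1 (hNV _ (e ▸ hs t ht) h.k2)

end Co
end Cfsg.Agent.HaR
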