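import Cfsg.Agent.HaR.I
import Cfsg.Agent.HaR.A
import Cfsg.Agent.HaR.F
import Cfsg.Agent.H11.Three
import Cfsg.Agent.MW.Small

set_option autoImplicit false
open Subgroup

namespace Cfsg.Agent.HaR
variable {S : Type*} [Group S] [Finite S] {A V : Subgroup S} {a k u : S}

theorem cmod (hS : IsPGroup 2 S) {N M : Subgroup S} [N.Normal] [M.Normal] (h : ¬ M ≤ N) :
    ∃ x ∈ M, x ∉ N ∧ x * x ∈ N ∧ ∀ s, s * x * s⁻¹ * x⁻¹ ∈ N := by
  obtain ⟨x, hx, h1, h2, h3⟩ := H11.exists_central_mod_in (S := ⊤) (hS.to_subgroup ⊤) le_top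
    (by rw [normalizer_eq_top N]) (by rw [normalizer_eq_top M]) h
  exact ⟨x, hx, h1, by rwa [← sq], fun s => h3 s trivial⟩

namespace Co

/-- `L = V ∪ kV`. -/
def L (h : Co V a k u) : Subgroup S where
  carrier := {l | l ∈ V ∨ l * k⁻¹ ∈ V}
  one_mem' := Or.inl (one_mem _)
  mul_mem' := by
    rintro x y (hx | hx) (hy | hy)
    · exact Or.inl (mul_mem hx hy)
    · exact Or.inr (by simpa [mul_assoc] using mul_mem hx hy)
    · exact Or.inr (by simpa [mul_assoc] using mul_mem hx (h.e.n.conj_mem _ hy k))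
    · exact Or.inl (by
        simpa [mul_assoc] using mul_mem (mul_mem hx (h.e.n.conj_mem _ hy k)) h.k2)
  inv_mem' := by
    rintro x (hx | hx)
    · exact Or.inl (inv_mem hx)
    · exact Or.inr (by
        simpa [mul_assoc] using mul_mem (h.e.n.conj_mem _ (inv_mem hx) k⁻¹) (inv_mem h.k2))

omit [Finite S] in
theorem Ln (h : Co V a k u) : h.L.Normal := ⟨by
  rintro x (hx | hx) s
  · exact Or.inl (h.e.n.conj_mem _ hx s)
  · exact Or.inr (by simpa [mul_assoc] using mul_mem (h.e.n.conj_mem _ hx s) (h.kc s))⟩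

theorem KL (h : Co V a k u) (hq : k * k = 1 ∨ k * k = d a u) {l : S}
    (hl : l ∈ centralizer (V : Set S)) : l ∈ V ∨ l * k⁻¹ ∈ V := by
  haveI := h.e.n
  haveI := h.Ln
  by_contra hn
  obtain ⟨x, hx, h1, -, h3⟩ := cmod h.e.p2 (N := h.L) (M := centralizer (V : Set S))
    fun e => hn (e hl)
  rcases h3 a with e | e
  · refine h1 (h.memL hx ?_)
    have := inv_mem e
    unfold d; simpa [mul_assoc] using this
  · refine h.ninv hq e ?_
    rw [h.ai]
    calc a * (a * x * a * x⁻¹) * a * (a * x * a * x⁻¹)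
        = (a * a) * x * a * x⁻¹ * (a * a) * x * a * x⁻¹ := by group
      _ = x * (a * a) * x⁻¹ := by simp [h.a2, mul_assoc]
      _ = 1 := by simp [h.a2]

theorem Kc (h : Co V a k u) (hq : k * k = 1 ∨ k * k = d a u) {x y : S}
    (hx : x ∈ centralizer (V : Set S)) (hy : y ∈ centralizer (V : Set S)) : x * y = y * x := by
  rcases h.KL hq hx with e | e
  · exact mem_centralizer_iff.1 hy x e
  rcases h.KL hq hy with f | f
  · exact (mem_centralizer_iff.1 hx y f).symm
  have c1 := mem_centralizer_iff.1 hy _ e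
  have c2 := mem_centralizer_iff.1 h.kK _ f
  have c3 : k * y = y * k := by
    calc k * y = k * (y * k⁻¹) * k := by group
      _ = y * k := by rw [← c2]; group
  calc x * y = x * k⁻¹ * (k * y) := by group
    _ = x * k⁻¹ * y * k := by rw [c3]; group
    _ = y * x := by rw [c1]; group

theorem K16 (h : Co V a k u) (hq : k * k = 1 ∨ k * k = d a u) :
    Nat.card (centralizer (V : Set S)) = 16 := by
  have hi : V.relIndex (centralizer (V : Set S)) = 2 := by
    refine index_eq_two_iff.2 ⟨⟨k⁻¹, inv_mem h.kK⟩, fun b => ?_⟩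
    simp only [mem_subgroupOf, Subgroup.coe_mul]
    rcases h.KL hq b.2 with e | e
    · exact Or.inr ⟨e, fun f => h.kV (by simpa using mul_mem (inv_mem f) e)⟩
    · exact Or.inl ⟨e, fun f => h.kV (by simpa using mul_mem (inv_mem e) f)⟩
  have := rc V (centralizer (V : Set S))
  rw [hi, inf_eq_left.2 fun v hv => h.e.le hv, h.e.card] at this
  omega

theorem subII (h : Co V a k u) (hA : SC A) (ha : a ∈ A)
    (hi : (A ⊓ centralizer (V : Set S)).relIndex A ≤ 4) (hq : k * k = 1 ∨ k * k = d a u)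
    {H N : Subgroup S} (hl : N ≤ H) (hs : ∀ x ∈ H, x * x ∈ N) : N.relIndex H ≤ 16 := by
  haveI := h.e.n
  by_contra hb
  push Not at hb
  have K16 := h.K16 hq
  have Kc := @h.Kc _ _ _ _ _ _ _ hq
  have i8 := idx8 h.e
  have q4 : (N ⊔ H ⊓ centralizer (V : Set S)).relIndex H ≤ 4 :=
    quo4 h.e le_sup_right (sup_le hl inf_le_left) fun x hx => mem_sup_left (hs x hx)
  set K := centralizer (V : Set S) with hK
  have b4 := big hl hs q4 hb
  have r1 := rc N (H ⊓ K)
  have p1 : 0 < Nat.card ↥(N ⊓ (H ⊓ K)) := Nat.card_pos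
  have d16 : ∀ X : Subgroup S, X ≤ K → 4 < Nat.card X → 8 ≤ Nat.card X := fun X hX h4 => by
    have h3 : Nat.card X ∣ 16 := K16 ▸ card_dvd_of_le hX
    have := Nat.le_of_dvd (by norm_num) h3
    generalize Nat.card X = m at *
    interval_cases m <;> simp_all
  -- every element of `H` centralizes a subgroup of order at least 8 of `K`
  have c8 : ∀ x ∈ H, 8 ≤ Nat.card ↥(centralizer {x} ⊓ K) := fun x hx => by
    refine d16 _ inf_le_right ?_
    have r2 := rc (centralizer {x}) (H ⊓ K)
    have r3 := MW.ri_le (T := H ⊓ K) (Z := N ⊓ (H ⊓ K)) (a := x) fun t ht =>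
      ⟨cmN hs ht.1 hx, hl (cmN hs ht.1 hx), by
        have := mul_mem ht.2 ((inferInstance : K.Normal).conj_mem _ (inv_mem ht.2) x)
        simpa [mul_assoc] using this⟩
    have r4 : Nat.card ↥(centralizer {x} ⊓ (H ⊓ K)) ≤ Nat.card ↥(centralizer {x} ⊓ K) :=
      card_le_of_le (inf_le_inf_left _ inf_le_right)
    by_contra h4
    have := Nat.mul_le_mul (r4.trans (not_lt.1 h4)) r3
    nlinarith
  -- the image of `H` in `S / K` has order greater than 2
  have i3 : 2 < K.relIndex H := by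
    by_contra h2
    have r2 := rc K H
    have r3 := rc N H
    rw [inf_eq_left.2 hl] at r3
    have r4 : Nat.card ↥(K ⊓ H) ≤ 16 := K16 ▸ card_le_of_le inf_le_left
    have p2 : 0 < Nat.card N := Nat.card_pos
    have n1 : Nat.card N = 1 := by nlinarith
    have hc : ∀ x ∈ H, ∀ y ∈ H, x * y = y * x := fun x hx y hy => by
      have := cmN hs hx hy
      rwa [card_eq_one.1 n1, mem_bot, mul_inv_eq_one, mul_inv_eq_iff_eq_mul] at this
    have h8 : 8 < Nat.card ↥(K ⊓ H) := by nlinarith
    have h16 : Nat.card ↥(K ⊓ H) = 16 := by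
      have h3 : Nat.card ↥(K ⊓ H) ∣ 16 := K16 ▸ card_dvd_of_le inf_le_left
      generalize Nat.card ↥(K ⊓ H) = m at *
      interval_cases m <;> simp_all
    have e : K ⊓ H = K := eq_of_le_of_card_ge inf_le_left (by rw [h16, K16])
    have hHK : H ≤ K := fun x hx => mem_centralizer_iff.2 fun v hv =>
      hc v ((e.ge (h.e.le hv)).2) x hx
    have := card_le_of_le hHK
    nlinarith
  have hn : (H ⊔ K).Normal := by
    have r := relIndex_mul_index (le_sup_right : K ≤ H ⊔ K)
    rw [relIndex_sup_right] at r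
    have p : (H ⊔ K).index ≠ 0 := index_ne_zero_of_finite
    have : (H ⊔ K).index = 1 ∨ (H ⊔ K).index = 2 := by
      have : (H ⊔ K).index < 3 := by nlinarith
      omega
    rcases this with e | e
    · rw [index_eq_one.1 e]; infer_instance
    · exact normal_of_index_eq_two e
  obtain ⟨x, hx, xK, -, xc⟩ := cmod h.e.p2 (N := K) (M := H ⊔ K) fun e => by
    rw [relIndex_eq_one.2 (le_sup_left.trans e)] at i3; omega
  have x8 : 8 ≤ Nat.card ↥(centralizer {x} ⊓ K) := by
    obtain ⟨y, hy, z, hz, rfl⟩ := (mem_sup_of_normal_right).1 hx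
    refine (c8 y hy).trans (card_le_of_le fun t ht => ⟨mem_centralizer_singleton_iff.2 ?_, ht.2⟩)
    rw [← mul_assoc, mem_centralizer_singleton_iff.1 ht.1, mul_assoc, Kc ht.2 hz, mul_assoc]
  have dK : d a x ∈ K := by
    have := inv_mem (xc a)
    unfold d; simpa [mul_assoc] using this
  have dV : d a x ∈ V := by
    refine (h.KL hq dK).resolve_right fun e => h.ninv hq e ?_
    unfold d
    calc a * (x * a * x⁻¹ * a⁻¹) * a * (x * a * x⁻¹ * a⁻¹) = a * x * (a * a) * x⁻¹ * a⁻¹ := by group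
      _ = 1 := by simp [h.a2]
  obtain ⟨l, hlL, el⟩ := h.sur dV (h.dc dV)
  have lK := h.LK hlL
  have sa : d a (l * (l⁻¹ * x)) = d a l := by rw [mul_inv_cancel_left, el]
  rw [d_mul, mul_eq_right, mul_inv_eq_one, mul_eq_left, d_one] at sa
  have s8 : ∀ m ∈ K, 8 ≤ Nat.card ↥(centralizer {l⁻¹ * x * m} ⊓ K) := fun m hm =>
    x8.trans (card_le_of_le fun t ht => ⟨mem_centralizer_singleton_iff.2 (by
      have c1 := mem_centralizer_singleton_iff.1 ht.1
      have c2 := Kc ht.2 (inv_mem lK)
      have c3 := Kc ht.2 hm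
      rw [← mul_assoc, ← mul_assoc, c2, mul_assoc l⁻¹, c1, mul_assoc, mul_assoc, c3]
      simp [mul_assoc]), ht.2⟩)
  have sK : ∀ m ∈ K, l⁻¹ * x * m ∉ K := fun m hm e => xK (by
    simpa [mul_assoc] using mul_mem (mul_mem lK e) (inv_mem hm))
  have sc : ∀ b, (l⁻¹ * x) * b * (l⁻¹ * x)⁻¹ * b⁻¹ ∈ K := fun b => by
    have := mul_mem (mul_mem (inv_mem lK) (inv_mem (xc b)))
      ((inferInstance : K.Normal).conj_mem _ lK b)
    simpa [mul_assoc] using this
  generalize l⁻¹ * x = s at sa s8 sK sc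
  have s0 : ∀ w ∈ V, w * a = a * w → s * w = w * s := fun w hw cw => by
    obtain ⟨m, hm, rfl⟩ := h.sur hw cw
    have mK := h.LK hm
    have r := rc (centralizer {s}) K
    have r8 := s8 1 (one_mem _)
    rw [mul_one] at r8
    have p : (centralizer {s}).relIndex K ≠ 0 := index_ne_zero_of_finite
    have : (centralizer {s}).relIndex K = 1 ∨ (centralizer {s}).relIndex K = 2 := by
      have : (centralizer {s}).relIndex K < 3 := by nlinarith
      omega
    rcases this with e | e
    · exact (mem_centralizer_singleton_iff.1 (relIndex_eq_one.1 e (h.e.le hw))).symm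
    · have m' := (inferInstance : K.Normal).conj_mem _ (inv_mem mK) a
      have := (mul_mem_iff_of_index_two e (a := ⟨m, mK⟩) (b := ⟨_, m'⟩)).2 (by
        simp only [mem_subgroupOf, mem_centralizer_singleton_iff]
        have s' : a⁻¹ * s = s * a⁻¹ := by rw [h.ai, sa]
        constructor
        · intro c
          have c' : m⁻¹ * s = s * m⁻¹ := (Commute.inv_left c).eq
          rw [mul_assoc, s', ← mul_assoc, mul_assoc a, c', ← mul_assoc, ← sa]; group
        · intro c
          have c' : m⁻¹ * s = s * m⁻¹ := by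
            apply mul_left_cancel (a := a)
            apply mul_right_cancel (b := a⁻¹)
            rw [← mul_assoc, mul_assoc _ s, ← s', ← mul_assoc, c, ← mul_assoc a, ← sa]; group
          exact (Commute.inv_left_iff.1 c').eq)
      rw [mem_subgroupOf, mem_centralizer_singleton_iff] at this
      unfold d
      simpa [mul_assoc] using this.symm
  obtain ⟨w, hw, hsw⟩ := HaR.a2 h.e hA hi ha h.aK sa s0 fun b hb => h.a1 _ (sc b) (by
    have c := hA.c b hb a ha
    exact ((((Commute.mul_left sa c).mul_left (Commute.inv_left sa))).mul_left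
      (Commute.inv_left c)).eq)
  have bK := sK w (h.e.le hw)
  have c4 := card0 h.e (hA.sq _ hsw) bK
  have := (s8 w (h.e.le hw)).trans (card_le_of_le (K := V ⊓ centralizer {s * w}) fun t ht =>
    ⟨HaR.a1 h.e hA hi hsw bK t ht.2 (mem_centralizer_singleton_iff.1 ht.1), ht.1⟩)
  omega

end Co
end Cfsg.Agent.HaR
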