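import Cfsg.Agent.HaR.R

set_option autoImplicit false
open Subgroup

namespace Cfsg.Agent.HaR
variable {S : Type*} [Group S]

/-- The commutator. -/
def d (a x : S) : S := x * a * x⁻¹ * a⁻¹

theorem d_mul (a x y : S) : d a (x * y) = x * d a y * x⁻¹ * d a x := by unfold d; group
theorem d_one {a x : S} : d a x = 1 ↔ x * a = a * x := by
  unfold d; rw [mul_inv_eq_one, mul_inv_eq_iff_eq_mul]

structure Co (V : Subgroup S) (a k u : S) : Prop where
  e : E8 V
  a2 : a * a = 1
  c4 : Nat.card ↥(V ⊓ centralizer {a}) = 4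
  a1 : ∀ y ∈ centralizer (V : Set S), y * a = a * y → y ∈ V
  kK : k ∈ centralizer (V : Set S)
  kV : k ∉ V
  k2 : k * k ∈ V
  kc : ∀ s, s * k * s⁻¹ * k⁻¹ ∈ V
  uV : u ∈ V
  ua : u * a ≠ a * u

variable {V : Subgroup S} {a k u : S}

theorem E8.le (h : E8 V) {v : S} (hv : v ∈ V) : v ∈ centralizer (V : Set S) :=
  mem_centralizer_iff.2 fun w hw => h.c w hw v hv

theorem E8.inv (h : E8 V) {v : S} (hv : v ∈ V) : v⁻¹ = v := inv_eq_of_mul_eq_one_right (h.sq v hv)

theorem cj {x v : S} (hx : x ∈ centralizer (V : Set S)) (hv : v ∈ V) : x * v * x⁻¹ = v := by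
  rw [← mem_centralizer_iff.1 hx v hv]; group

namespace Co

theorem ai (h : Co V a k u) : a⁻¹ = a := inv_eq_of_mul_eq_one_right h.a2

theorem dV (h : Co V a k u) {v : S} (hv : v ∈ V) : d a v ∈ V := by
  have := mul_mem hv (h.e.n.conj_mem _ (inv_mem hv) a)
  unfold d; simpa [mul_assoc] using this

theorem dk (h : Co V a k u) : d a k ∈ V := by
  have := inv_mem (h.kc a)
  unfold d; simpa [mul_assoc] using this

theorem dm {x y : S} (hx : x ∈ centralizer (V : Set S)) (hy : d a y ∈ V) :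
    d a (x * y) = d a y * d a x := by rw [d_mul, cj hx hy]

theorem dc (h : Co V a k u) {x : S} (hx : d a x ∈ V) : d a x * a = a * d a x := by
  have e : (d a x)⁻¹ * a = a * d a x := by
    unfold d
    calc (x * a * x⁻¹ * a⁻¹)⁻¹ * a = a * x * a⁻¹ * x⁻¹ * a := by group
      _ = a * x * a * x⁻¹ * a⁻¹ := by rw [h.ai]
      _ = _ := by group
  rwa [h.e.inv hx] at e

theorem dv [Finite S] (h : Co V a k u) {v : S} (hv : v ∈ V) : d a v = 1 ∨ d a v = d a u := by
  have hi : ((centralizer ({a} : Set S)).subgroupOf V).index = 2 := by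
    have := rc (centralizer ({a} : Set S)) V
    rw [inf_comm, h.c4, h.e.card] at this
    unfold relIndex at this; omega
  by_cases h1 : v * a = a * v
  · exact Or.inl (d_one.2 h1)
  · right
    have := (mul_mem_iff_of_index_two hi (a := ⟨v, hv⟩) (b := ⟨u, h.uV⟩)).2
      (by simp [mem_subgroupOf, mem_centralizer_singleton_iff, h1, h.ua])
    rw [mem_subgroupOf, mem_centralizer_singleton_iff] at this
    have e := d_one.2 this
    rw [Subgroup.coe_mul, dm (h.e.le hv) (h.dV h.uV)] at e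
    rw [← h.e.inv (h.dV h.uV)]
    exact (eq_inv_of_mul_eq_one_right e)

theorem v1 (h : Co V a k u) : d a u ≠ 1 := fun e => h.ua (d_one.1 e)
theorem v2 (h : Co V a k u) : d a k ≠ 1 := fun e => h.kV (h.a1 k h.kK (d_one.1 e))
theorem v12 (h : Co V a k u) : d a u * d a k ≠ 1 := fun e => h.kV (by
  rw [← dm h.kK (h.dV h.uV)] at e
  have := h.a1 _ (mul_mem h.kK (h.e.le h.uV)) (d_one.1 e)
  exact (mul_mem_cancel_right h.uV).1 this)
theorem ne12 (h : Co V a k u) : d a u ≠ d a k := fun e => h.v12 (by rw [e]; exact h.e.sq _ h.dk)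

/-- three distinct nontrivial elements: the fixed four-group. -/
theorem four [Finite S] (h : Co V a k u) {x y w : S} (hx : x ∈ V) (hy : y ∈ V) (hw : w ∈ V)
    (cx : x * a = a * x) (cy : y * a = a * y) (cw : w * a = a * w) (x1 : x ≠ 1) (y1 : y ≠ 1)
    (xy : x ≠ y) : w = 1 ∨ w = x ∨ w = y ∨ w = x * y := by
  classical
  have hs : ({1, x, y, x * y} : Set S) ⊆ (V ⊓ centralizer {a} : Subgroup S) := by
    have mx : x ∈ V ⊓ centralizer {a} := ⟨hx, mem_centralizer_singleton_iff.2 cx⟩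
    have my : y ∈ V ⊓ centralizer {a} := ⟨hy, mem_centralizer_singleton_iff.2 cy⟩
    rintro t (rfl | rfl | rfl | rfl)
    exacts [one_mem _, mx, my, mul_mem mx my]
  have n1 : x * y ≠ 1 := fun e => xy (by rw [← h.e.inv hy]; exact eq_inv_of_mul_eq_one_left e)
  have c : ({1, x, y, x * y} : Set S).ncard = 4 := by
    rw [Set.ncard_insert_of_notMem (by simp [x1.symm, y1.symm, n1.symm]),
      Set.ncard_insert_of_notMem (by simp [xy, y1]), Set.ncard_pair (by simp [x1])]
  have := Set.eq_of_subset_of_ncard_le hs (by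
    rw [c, ← h.c4]; exact (Nat.card_coe_set_eq _).symm.le)
  have m : w ∈ ({1, x, y, x * y} : Set S) := this ▸ ⟨hw, mem_centralizer_singleton_iff.2 cw⟩
  simpa using m

theorem sur [Finite S] (h : Co V a k u) {w : S} (hw : w ∈ V) (cw : w * a = a * w) :
    ∃ l, (l ∈ V ∨ l * k⁻¹ ∈ V) ∧ d a l = w := by
  rcases h.four (h.dV h.uV) h.dk hw (h.dc (h.dV h.uV)) (h.dc h.dk) cw h.v1 h.v2 h.ne12 with
    rfl | rfl | rfl | rfl
  · exact ⟨1, Or.inl (one_mem _), by simp [d]⟩
  · exact ⟨u, Or.inl h.uV, rfl⟩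
  · exact ⟨k, Or.inr (by simp), rfl⟩
  · exact ⟨k * u, Or.inr (by rw [cj h.kK h.uV]; exact h.uV), dm h.kK (h.dV h.uV)⟩

theorem LK (h : Co V a k u) {l : S} (hl : l ∈ V ∨ l * k⁻¹ ∈ V) : l ∈ centralizer (V : Set S) := by
  rcases hl with hl | hl
  · exact h.e.le hl
  · simpa using mul_mem (h.e.le hl) h.kK

theorem memL [Finite S] (h : Co V a k u) {l : S} (hl : l ∈ centralizer (V : Set S))
    (hd : d a l ∈ V) : l ∈ V ∨ l * k⁻¹ ∈ V := by
  obtain ⟨m, hm, e⟩ := h.sur hd (h.dc hd)
  have : d a (l * (l⁻¹ * m)) = d a l := by rw [mul_inv_cancel_left, e]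
  rw [d_mul, mul_eq_right, mul_inv_eq_one, mul_eq_left, d_one] at this
  have hv := h.a1 _ (mul_mem (inv_mem hl) (h.LK hm)) this
  have hv' : m * l⁻¹ ∈ V := by simpa using h.e.n.conj_mem _ hv l
  rcases hm with hm | hm
  · left; simpa using mul_mem (inv_mem hv') hm
  · right; simpa [mul_assoc] using mul_mem (inv_mem hv') hm

theorem sqL (h : Co V a k u) {l : S} (hl : l * k⁻¹ ∈ V) : l * l = k * k := by
  have e := cj h.kK hl
  have e2 := h.e.sq _ hl
  generalize hv : l * k⁻¹ = v at *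
  obtain rfl : l = v * k := by rw [← hv]; group
  calc v * k * (v * k) = v * (k * v * k⁻¹) * (k * k) := by group
    _ = k * k := by rw [e, e2, one_mul]

theorem qc (h : Co V a k u) (s : S) : s * (k * k) = k * k * s := by
  have := h.sqL (h.kc s)
  calc s * (k * k) = s * k * s⁻¹ * (s * k * s⁻¹) * s := by group
    _ = _ := by rw [this]

theorem dL [Finite S] (h : Co V a k u) {l : S} (hl : l * k⁻¹ ∈ V) :
    d a l = d a k ∨ d a l = d a k * d a u := by
  have : d a (l * k⁻¹ * k) = d a k * d a (l * k⁻¹) := dm (h.e.le hl) h.dk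
  rw [inv_mul_cancel_right] at this
  rcases h.dv hl with e | e <;> rw [e] at this
  · left; simpa using this
  · exact Or.inr this

/-- In case II no element of the nontrivial coset is inverted by `a`. -/
theorem ninv [Finite S] (h : Co V a k u) (hq : k * k = 1 ∨ k * k = d a u) {l : S}
    (hl : l * k⁻¹ ∈ V) (hi : a * l * a * l = 1) : False := by
  have e : d a l = k * k := by
    rw [← h.sqL hl, d, h.ai]
    have : a * l⁻¹ * a = l := by
      calc a * l⁻¹ * a = a * l⁻¹ * a * (a * l * a * l) := by rw [hi, mul_one]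
        _ = a * l⁻¹ * (a * a) * l * a * l := by group
        _ = (a * a) * l := by simp [h.a2, mul_assoc]
        _ = l := by rw [h.a2, one_mul]
    calc l * a * l⁻¹ * a = l * (a * l⁻¹ * a) := by group
      _ = l * l := by rw [this]
  have c := h.e.c _ h.dk _ (h.dV h.uV)
  rcases h.dL hl with f | f <;> rcases hq with g | g <;> rw [f, g] at e
  · exact h.v2 e
  · exact h.ne12 e.symm
  · exact h.v12 (c ▸ e)
  · exact h.v2 (mul_eq_right.1 e)

/-- elements commuting with `a` fix `[u,a]`. -/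
theorem fix1 [Finite S] (h : Co V a k u) {s : S} (hs : s * a = a * s) :
    s * d a u = d a u * s := by
  have e : d a (s * u * s⁻¹) = s * d a u * s⁻¹ := by
    have hs' : s⁻¹ * a * s = a := by rw [mul_assoc, ← hs]; group
    unfold d
    calc s * u * s⁻¹ * a * (s * u * s⁻¹)⁻¹ * a⁻¹
        = s * u * (s⁻¹ * a * s) * u⁻¹ * (s⁻¹ * a * s)⁻¹ * s⁻¹ := by group
      _ = _ := by rw [hs']; group
  rcases h.dv (h.e.n.conj_mem _ h.uV s) with f | f <;> rw [e] at f
  · rw [mul_inv_eq_one, mul_eq_left] at f; exact absurd f h.v1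
  · exact mul_inv_eq_iff_eq_mul.1 f

end Co
end Cfsg.Agent.HaR
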