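import Cfsg.Agent.HaR.D
import Cfsg.Prelude.Def_CaseTheorems

set_option autoImplicit false
open Subgroup

namespace Cfsg.Agent.HaR
variable {S : Type*} [Group S]

theorem red (h : ∀ H N : Subgroup S, N ≤ H → (∀ x ∈ H, x * x ∈ N) → N.relIndex H ≤ 16) :
    Cfsg.SectionalPRankLE 2 4 S := by
  intro H N _ A _ hA2
  have := h ((A.comap (QuotientGroup.mk' N)).map H.subtype) (N.map H.subtype)
    (map_mono fun x hx => by
      rw [mem_comap, QuotientGroup.mk'_apply, (QuotientGroup.eq_one_iff x).2 hx]; exact one_mem _)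
    (by
      rintro _ ⟨x, hx, rfl⟩
      refine ⟨x * x, ?_, rfl⟩
      have := hA2 _ hx
      rwa [sq, ← map_mul, QuotientGroup.mk'_apply, QuotientGroup.eq_one_iff] at this)
  rw [relIndex_map_map_of_injective _ _ H.subtype_injective] at this
  have e := relIndex_ker (A.comap (QuotientGroup.mk' N)) (QuotientGroup.mk' N)
  rw [QuotientGroup.ker_mk', map_comap_eq_self_of_surjective (QuotientGroup.mk'_surjective N)] at e
  rw [e] at this
  simpa using this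

theorem cmN {H N : Subgroup S} (hs : ∀ x ∈ H, x * x ∈ N) {x y : S} (hx : x ∈ H) (hy : y ∈ H) :
    x * y * x⁻¹ * y⁻¹ ∈ N := by
  have e : x * y * x⁻¹ * y⁻¹ =
      ((x * y) * (x * y)) * ((y⁻¹ * x⁻¹ * y) * (y⁻¹ * x⁻¹ * y)) * (y⁻¹ * y⁻¹) := by group
  rw [e]
  exact mul_mem (mul_mem (hs _ (mul_mem hx hy)) (hs _ (mul_mem (mul_mem (inv_mem hy) (inv_mem hx)) hy)))
    (hs _ (inv_mem hy))

theorem split {H N : Subgroup S} (hl : N ≤ H) (hs : ∀ x ∈ H, x * x ∈ N) (X : Subgroup S) :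
    N.relIndex H = N.relIndex (H ⊓ X) * (N ⊔ H ⊓ X).relIndex H := by
  rw [← relIndex_mul_relIndex N (N ⊔ H ⊓ X) H le_sup_left (sup_le hl inf_le_left)]
  congr 1
  haveI : (N.subgroupOf H).Normal := ⟨fun n hn g => by
    have := mul_mem (cmN hs g.2 n.2) hn
    simpa [mem_subgroupOf] using this⟩
  rw [← relIndex_subgroupOf (sup_le hl inf_le_left), subgroupOf_sup hl inf_le_left,
    relIndex_sup_left, relIndex_subgroupOf inf_le_left]

/-- If `|H : N| > 16` but `|H : N (H ∩ X)| ≤ 4` then `|H ∩ X : N ∩ X| > 4`. -/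
theorem big {H N X : Subgroup S} (hl : N ≤ H) (hs : ∀ x ∈ H, x * x ∈ N)
    (h4 : (N ⊔ H ⊓ X).relIndex H ≤ 4) (h : 16 < N.relIndex H) : 4 < N.relIndex (H ⊓ X) := by
  rw [split hl hs X] at h
  by_contra h'
  push Not at h'
  have := Nat.mul_le_mul h' h4
  omega

theorem rc [Finite S] (N Y : Subgroup S) : Nat.card ↥(N ⊓ Y) * N.relIndex Y = Nat.card Y := by
  rw [← inf_relIndex_right, relIndex, ← card_mul_index ((N ⊓ Y).subgroupOf Y),
    Nat.card_congr (subgroupOfEquivOfLe (inf_le_right : N ⊓ Y ≤ Y)).toEquiv]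

theorem full [Finite S] {V H N : Subgroup S} (hV : E8 V) (hl : N ≤ H) (hs : ∀ x ∈ H, x * x ∈ N)
    (h4 : (N ⊔ H ⊓ V).relIndex H ≤ 4) (h : 16 < N.relIndex H) :
    V ≤ H ∧ (∀ x ∈ N, x ∈ V → x = 1) ∧ H ≤ centralizer (V : Set S) := by
  have h1 := big hl hs h4 h
  have h2 := rc N (H ⊓ V)
  have h3 : Nat.card ↥(H ⊓ V) ∣ 8 := hV.card ▸ card_dvd_of_le inf_le_right
  have h5 : 0 < Nat.card ↥(N ⊓ (H ⊓ V)) := Nat.card_pos
  have h6 : Nat.card ↥(H ⊓ V) ≤ 8 := Nat.le_of_dvd (by norm_num) h3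
  have h7 : Nat.card ↥(N ⊓ (H ⊓ V)) = 1 := by nlinarith
  have h8 : Nat.card ↥(H ⊓ V) = 8 := by
    rw [h7, one_mul] at h2
    have : 4 < Nat.card ↥(H ⊓ V) := h2 ▸ h1
    generalize Nat.card ↥(H ⊓ V) = m at *
    interval_cases m <;> simp_all
  have e : H ⊓ V = V := eq_of_le_of_card_ge inf_le_right (by rw [h8, hV.card])
  have hVH : V ≤ H := e ▸ inf_le_left
  have hb : ∀ x ∈ N, x ∈ V → x = 1 := fun x hx hv => by
    have : x ∈ N ⊓ (H ⊓ V) := ⟨hx, hl hx, hv⟩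
    rwa [card_eq_one.1 h7, mem_bot] at this
  refine ⟨hVH, hb, fun x hx => mem_centralizer_iff.2 fun v hv => ?_⟩
  have := hb _ (cmN hs hx (hVH hv)) (mul_mem (hV.n.conj_mem v hv x) (inv_mem hv))
  rw [mul_inv_eq_one, mul_inv_eq_iff_eq_mul] at this
  exact this.symm

end Cfsg.Agent.HaR
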